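import Cfsg.Agent.H557.Co3.CentE8
import Cfsg.Agent.H557.LrData

/-!
# The centraliser of the involution `h_β(-1)`, `β` the highest root (helper557, S1920)

* `cent_rho` : a torus element `t` with `x(t) = 1 ↔ x i₀` even, `± β` isolated in the even roots, `β` dominant and not
  orthogonal only to `α_{i₀}`: `C(t) ≤ GC hp K i₀`;
* `cent_E7` : `chevE7`, `i₀ = 0`, `β` the root of index `125`; `cent_E7_of_act` : the same for an element given by its
  action on the root groups.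
-/

set_option autoImplicit false
set_option linter.unusedSectionVars false

namespace Cfsg.Agent.H557.Co3.CentE7

open CoxeterSystem Cfsg.Agent.ChevalleyStructure.CoxeterGeom Cfsg.Agent.Tits.Roots Cfsg.Agent.Tits.Core
  Cfsg.Agent.Tits.RootComb Cfsg.Agent.Nodes.Reps Cfsg.Agent.Nodes.BNOf Cfsg.Agent.Nodes.StabComb
  Cfsg.Agent.Nodes.Bruhat Cfsg.Agent.H557.CardCent Cfsg.Agent.H557.WAct Cfsg.Agent.H557.CentChev
open Cfsg.Lie Cfsg.Agent.ChevalleyStructure Cfsg.Agent.ChevalleyStructure.Elts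
  Cfsg.Agent.ChevalleyStructure.CoxeterGeomTypes Cfsg.Agent.Nodes.RGDChev
  Cfsg.Agent.KFacts.RgdChevCoord Cfsg.Agent.OddHalf.NI.ModelChev Cfsg.Agent.GenExc Cfsg.Agent.GenExc.Chev
open Cfsg.Agent.H557.LrRho Cfsg.Agent.H557.LrData Cfsg.Agent.H557.LrOrb Cfsg.Agent.H557.LrChev Cfsg.Agent.H557.Co3.CentE8

universe u

section

variable {D : ChevalleyDatum} {l : ℕ} {M : CoxeterMatrix (Fin l)} (hp : IsType D l M) {K : Type u} [Field K] [Finite K]
  (p : ℕ) [Fact p.Prime] [CharP K p] {W : Type*} [Group W] (cs : CoxeterSystem M W)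

include cs p in
theorem XX_le_cent {t : ↥(D.group K)} (ht : t ∈ TT D K) {x : Fin l → ℤ} (hx : IsRoot cs hp.isCartan x)
    (h1 : ch hp x t = 1) : XX D l K x ≤ Subgroup.centralizer {t} := by
  intro g hg
  have C := (coords (K := K) hp cs p).coord x hx
  obtain ⟨a, rfl⟩ := (C.mem g).1 hg
  have h2 := C.act t ht a
  rw [h1, one_mul] at h2
  rw [Subgroup.mem_centralizer_iff]
  rintro _ rfl
  exact mul_inv_eq_iff_eq_mul.1 h2

theorem refl_fix (t : TT D K) (w : W) (j : Fin l)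
    (h1 : ch hp (rep cs hp.isCartan w (sr j)) (t : ↥(D.group K)) = 1)
    (h2 : ch hp (-rep cs hp.isCartan w (sr j)) (t : ↥(D.group K)) = 1) :
    w * cs.simple j * w⁻¹ ∈ fixS cs (rgd (K := K) hp cs p).nsys (comm_mem_TT hp) t := by
  have Rd := rgd (K := K) hp cs p
  have hx : IsRoot cs hp.isCartan (rep cs hp.isCartan w (sr j)) := ⟨w, j, rfl⟩
  have hxn : IsRoot cs hp.isCartan (-sr j) := (isRoot_sr cs hp.isCartan j).neg
  have C := (coords (K := K) hp cs p).coord _ hxn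
  obtain ⟨k, hk, hk'⟩ := exists_rp_refl Rd w j ⟨xc hp (-sr j) 1, (C.mem _).2 ⟨1, rfl⟩, fun h => by
    rw [← C.zero] at h
    exact one_ne_zero (C.inj h)⟩
  have h3 := (sup_le (XX_le_cent hp p cs t.2 hx h1) (XX_le_cent hp p cs t.2 hx.neg h2)) hk
  rw [mem_fixS, act_rp cs Rd.nsys (comm_mem_TT hp) hk' t.2]
  exact mul_inv_eq_iff_eq_mul.2 (Subgroup.mem_centralizer_iff.1 h3 _ rfl).symm

variable {i₀ : Fin l}

include p in
/-- **the centraliser of the involution of the highest root** -/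
theorem cent_rho [Finite W] (t : TT D K)
    (hch : ∀ x, IsRoot cs hp.isCartan x → (ch hp x (t : ↥(D.group K)) = 1 ↔ Even (x i₀)))
    {β : Fin l → ℤ} (hiso : LrIso.Iso cs hp.isCartan {x | IsRoot cs hp.isCartan x ∧ Even (x i₀)} β)
    (hdom : Dom (cartanOf D l) β) (horth : ∀ i : Fin l, pairing (cartanOf D l) i β = 0 → i ≠ i₀)
    {g : ↥(D.group K)} (hg : (t : ↥(D.group K)) * g = g * t) : g ∈ GC hp K i₀ := by
  have Rd := rgd (K := K) hp cs p
  obtain ⟨⟨hβ, hβe⟩, hβn⟩ := (hiso β).2 (Or.inl rfl)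
  obtain ⟨⟨hβ', hβe'⟩, -⟩ := (hiso (-β)).2 (Or.inr rfl)
  have hE : ∀ w ∈ fixS cs Rd.nsys (comm_mem_TT hp) t, ∀ x, IsRoot cs hp.isCartan x → Even (x i₀) →
      Even (rep cs hp.isCartan w x i₀) := by
    intro w hw x hx h0
    rw [← hch _ (hx.act w), ch_fix hp p cs hw hx, hch x hx]
    exact h0
  refine HC_le_GC hp cs p hch (centralizer_le hp cs p t (fun w hw => ?_) hg)
  -- the simple reflections
  have hsimple : ∀ {v : W}, rep cs hp.isCartan v β = β → v ∈ Subgroup.closure (Refl hp cs p t) := by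
    intro v hv
    have h1 := mem_WJ_of_rep (cs := cs) (h := hp.isCartan) hdom hv
    unfold WJ at h1
    refine Subgroup.closure_mono ?_ h1
    rintro _ ⟨i, hi, rfl⟩
    have hi0 : i ≠ i₀ := horth i ((mem_orth (cs := cs) (h := hp.isCartan)).1 hi)
    have e1 : ch hp (rep cs hp.isCartan 1 (sr i)) (t : ↥(D.group K)) = 1 := by
      rw [map_one, Module.End.one_apply, hch _ (isRoot_sr cs hp.isCartan i), sr_ne hi0.symm]
      exact Even.zero
    have e2 : ch hp (-rep cs hp.isCartan 1 (sr i)) (t : ↥(D.group K)) = 1 := by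
      rw [map_one, Module.End.one_apply, hch _ (isRoot_sr cs hp.isCartan i).neg, Pi.neg_apply, sr_ne hi0.symm, neg_zero]
      exact Even.zero
    have e3 := refl_fix hp p cs t 1 i e1 e2
    have e4 : (1 : W) * cs.simple i * 1⁻¹ = cs.simple i := by group
    rw [e4] at e3
    exact ⟨e3, 1, i, e4.symm, e1⟩
  have h1 : rep cs hp.isCartan w β = β ∨ rep cs hp.isCartan w β = -β := by
    rw [← hiso]
    refine ⟨⟨hβ.act w, hE w hw _ hβ hβe⟩, ?_⟩
    rintro ⟨-, y, ⟨hy, hye⟩, hxy⟩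
    refine hβn ⟨⟨hβ, hβe⟩, rep cs hp.isCartan w⁻¹ y, ⟨hy.act w⁻¹, hE _ (inv_mem hw) _ hy hye⟩, ?_⟩
    have h2 := hxy.act w⁻¹
    rwa [map_add, rep_inv_apply] at h2
  rcases h1 with h1 | h1
  · exact hsimple h1
  · obtain ⟨v, i, hvi⟩ := hβ
    have e1 : ch hp (rep cs hp.isCartan v (sr i)) (t : ↥(D.group K)) = 1 := by
      rw [← hvi, hch _ ⟨v, i, hvi⟩]
      exact hβe
    have e2 : ch hp (-rep cs hp.isCartan v (sr i)) (t : ↥(D.group K)) = 1 := by
      rw [← hvi, hch _ hβ']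
      exact hβe'
    have e3 := refl_fix hp p cs t v i e1 e2
    have h5 : rep cs hp.isCartan (v * cs.simple i * v⁻¹) β = -β := by
      rw [hvi, ← rep_mul_apply, inv_mul_cancel_right, rep_mul_apply, rep_simple_sr, map_neg]
    have h6 : rep cs hp.isCartan ((v * cs.simple i * v⁻¹) * w) β = β := by
      rw [rep_mul_apply, h1, map_neg, h5, neg_neg]
    have h7 : w = (v * cs.simple i * v⁻¹)⁻¹ * ((v * cs.simple i * v⁻¹) * w) := by group
    rw [h7]
    exact mul_mem (inv_mem (Subgroup.subset_closure ⟨e3, v, i, rfl, e1⟩)) (hsimple h6)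

end

/-! ### `chevE7` -/

theorem bits_one {l : ℕ} (k : Fin l) (x : Fin l → ℤ) : bits l (2 ^ (k : ℕ)) x = 0 ↔ Even (x k) := by
  have h1 : bits l (2 ^ (k : ℕ)) x = ((x k : ℤ) : ZMod 2) := by
    show (∑ j : Fin l, if (2 ^ (k : ℕ)).testBit j then ((x j : ℤ) : ZMod 2) else 0) = _
    rw [Finset.sum_eq_single k]
    · rw [if_pos (by rw [Nat.testBit_two_pow]; simp)]
    · intro j _ hj
      rw [if_neg]
      rw [Nat.testBit_two_pow]
      intro h
      rw [decide_eq_true_eq] at h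
      exact hj (Fin.ext h.symm)
    · intro h; exact absurd (Finset.mem_univ _) h
  rw [h1, ZMod.intCast_zmod_eq_zero_iff_dvd, even_iff_two_dvd]
  rfl

theorem even_iff_E7 {r : ℕ} (hr : r < chevE7.nroots) : Even (csum chevE7 ([2, 4, 6] : List (Fin 7)) r) ↔ Even (vec chevE7 7 r 0) := by
  rw [← csz_vec Nodes.KindE.isType7 [2, 4, 6] hr, ← bits_E7]
  exact bits_one (0 : Fin 7) _

theorem iso_E7 {W : Type*} [Group W] (cs : CoxeterSystem CoxeterMatrix.E₇ W) :
    LrIso.Iso cs Nodes.KindE.isType7.isCartan {x | IsRoot cs Nodes.KindE.isType7.isCartan x ∧ Even (x 0)}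
      (vec chevE7 7 125) := by
  have h1 := rhoE7.iso Nodes.KindE.isType7 cs
  have h2 : Ev chevE7 7 [[2, 4, 6]] = {x | IsRoot cs Nodes.KindE.isType7.isCartan x ∧ Even (x 0)} := by
    ext x
    constructor
    · rintro ⟨r, hr, rfl, h3⟩
      exact ⟨isRoot_vec Nodes.KindE.isType7 cs hr, (even_iff_E7 hr).1 (h3 _ (List.mem_singleton.2 rfl))⟩
    · rintro ⟨hx, h3⟩
      obtain ⟨r, hr, rfl⟩ := (isRoot_iff Nodes.KindE.isType7 cs x).1 hx
      refine ⟨r, hr, rfl, fun S hS => ?_⟩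
      rw [List.mem_singleton.1 hS]
      exact (even_iff_E7 hr).2 h3
  rw [← h2]
  exact h1

theorem dom_E7 : Dom (cartanOf chevE7 7) (vec chevE7 7 125) := by
  unfold Dom
  decide +kernel

theorem orth_E7 : ∀ i : Fin 7, pairing (cartanOf chevE7 7) i (vec chevE7 7 125) = 0 → i ≠ 0 := by
  decide +kernel

/-- column masks of the Cartan matrix modulo `2` -/
def cm7 : List ℕ := [4, 8, 9, 22, 40, 80, 32]

set_option backward.isDefEq.respectTransparency false in
theorem hcm7 : SignTorus.OkC (cartanOf chevE7 7) cm7 := by unfold SignTorus.OkC; decide +kernel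

theorem n0_E7 : ∀ j : Fin 7, SignTorus.par 7 (84 &&& cm7.getD j 0) = decide (j = 0) := by decide +kernel

section

variable {K : Type u} [Field K] [Finite K]

/-- **the centraliser of the involution `h_β(-1)` of `chevE7`** -/
theorem cent_E7_of_ch (ho : Odd (Nat.card K)) {W : Type*} [Group W] (cs : CoxeterSystem CoxeterMatrix.E₇ W)
    {t : ↥(chevE7.group K)} (ht : t ∈ TT chevE7 K)
    (hch : ∀ x, IsRoot cs Nodes.KindE.isType7.isCartan x → (ch Nodes.KindE.isType7 x t = 1 ↔ Even (x 0)))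
    {g : ↥(chevE7.group K)} (hg : t * g = g * t) : g ∈ GC Nodes.KindE.isType7 K 0 := by
  obtain ⟨p, hp, hpc, h2⟩ := exists_p ho
  have hW : Finite W := finite_W Nodes.KindE.isType7 cs
  exact cent_rho Nodes.KindE.isType7 p cs ⟨t, ht⟩ hch (iso_E7 cs) dom_E7 orth_E7 hg

/-- the element as a product of `h_i(-1)`, `i = 2, 4, 6` -/
theorem cent_E7 (ho : Odd (Nat.card K)) {g : ↥(chevE7.group K)}
    (hg : th Nodes.KindE.isType7 (SignTorus.sg K 7 84) * g = g * th Nodes.KindE.isType7 (SignTorus.sg K 7 84)) :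
    g ∈ GC Nodes.KindE.isType7 K 0 := by
  obtain ⟨p, hp, hpc, h2⟩ := exists_p ho
  refine cent_E7_of_ch ho (CoxeterMatrix.toCoxeterSystem _) (Toral.th_mem _ _) (fun x hx => ?_) hg
  exact SignTorus.ch_sg _ _ hcm7 hx h2 n0_E7

/-- the element given by its action on the root groups -/
theorem cent_E7_of_act (ho : Odd (Nat.card K)) {t : ↥(chevE7.group K)} (ht : t ∈ TT chevE7 K)
    (hact : ∀ r < chevE7.nroots, (t : GL chevE7.Idx K) * xG Nodes.KindE.isType7.inList r 1 * (t : GL chevE7.Idx K)⁻¹ =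
      xG Nodes.KindE.isType7.inList r ((-1) ^ (vec chevE7 7 r 0)))
    {g : ↥(chevE7.group K)} (hg : t * g = g * t) : g ∈ GC Nodes.KindE.isType7 K 0 := by
  obtain ⟨p, hp, hpc, h2⟩ := exists_p ho
  refine cent_E7_of_ch ho (CoxeterMatrix.toCoxeterSystem _) ht (fun x hx => ?_) hg
  obtain ⟨r, hr, rfl⟩ := (isRoot_iff Nodes.KindE.isType7 _ x).1 hx
  have h3 : ch Nodes.KindE.isType7 (vec chevE7 7 r) t = (-1) ^ (vec chevE7 7 r 0) := by
    refine KFacts.RgdChevCoord.ch_eq Nodes.KindE.isType7 hr ht (Subtype.ext ?_)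
    rw [Subgroup.coe_mul, Subgroup.coe_mul, Subgroup.coe_inv, coe_xc _ hr, coe_xc _ hr]
    exact hact r hr
  rw [h3]
  constructor
  · intro h
    by_contra h4
    rw [Int.not_even_iff_odd] at h4
    rw [h4.neg_one_zpow] at h
    apply h2
    linear_combination -h
  · intro h
    exact h.neg_one_zpow

end

end Cfsg.Agent.H557.Co3.CentE7
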